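import Mathlib
import Cfsg.Prelude.Def_PLocal
import Cfsg.Agent.Modules.Thompson
import Cfsg.Agent.FusionSys.Basic

set_option autoImplicit false

/-!
The pair (largest order of an abelian subgroup, order of the Thompson subgroup) as a key on
subgroups.
-/

namespace Cfsg.Agent.FFTorus

open Cfsg.Agent.Modules

variable {Ω : Type*} [Group Ω]

/-- The largest order of an abelian subgroup of `P`. -/
noncomputable def dAb (P : Subgroup Ω) : ℕ :=
  sSup {n | ∃ B : Subgroup Ω, B ≤ P ∧ IsMulCommutative B ∧ Nat.card B = n}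

variable {P Q : Subgroup Ω}

theorem finite_of_le [Finite Q] (h : P ≤ Q) : Finite P :=
  Finite.of_injective _ (Subgroup.inclusion_injective h)

theorem dAb_eq [Finite P] {A : Subgroup Ω} (hA : A ∈ maxAbIn P) : dAb P = Nat.card A := by
  refine le_antisymm (csSup_le ⟨_, A, hA.1, hA.2.1, rfl⟩ ?_) (le_csSup ⟨Nat.card P, ?_⟩ ⟨A, hA.1, hA.2.1, rfl⟩)
  · rintro n ⟨B, hB, hBc, rfl⟩
    exact hA.2.2 B hB hBc
  · rintro n ⟨B, hB, -, rfl⟩
    exact Subgroup.card_le_of_le hB

theorem le_dAb [Finite P] {B : Subgroup Ω} (hB : B ≤ P) (hBc : IsMulCommutative B) :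
    Nat.card B ≤ dAb P := by
  obtain ⟨A, hA⟩ := maxAbIn_nonempty P
  rw [dAb_eq hA]
  exact hA.2.2 B hB hBc

theorem mem_maxAbIn_iff [Finite P] {A : Subgroup Ω} :
    A ∈ maxAbIn P ↔ A ≤ P ∧ IsMulCommutative A ∧ Nat.card A = dAb P :=
  ⟨fun h => ⟨h.1, h.2.1, (dAb_eq h).symm⟩,
    fun ⟨h1, h2, h3⟩ => ⟨h1, h2, fun _ hB hBc => h3 ▸ le_dAb hB hBc⟩⟩

theorem dAb_mono [Finite Q] (h : P ≤ Q) : dAb P ≤ dAb Q := by
  haveI := finite_of_le h
  obtain ⟨A, hA⟩ := maxAbIn_nonempty P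
  rw [dAb_eq hA]
  exact le_dAb (hA.1.trans h) hA.2.1

theorem thompson_mono [Finite Q] (h : P ≤ Q) (hd : dAb P = dAb Q) :
    thompsonSubgroupAOf P ≤ thompsonSubgroupAOf Q := by
  haveI := finite_of_le h
  rw [thompsonSubgroupAOf_eq_sSup]
  refine sSup_le fun A hA => le_thompsonSubgroupAOf ?_
  exact mem_maxAbIn_iff.2 ⟨hA.1.trans h, hA.2.1, (dAb_eq hA).symm.trans hd⟩

theorem dAb_thompson [Finite P] : dAb (thompsonSubgroupAOf P) = dAb P := by
  refine le_antisymm (dAb_mono (thompsonSubgroupAOf_le P)) ?_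
  haveI := finite_of_le (thompsonSubgroupAOf_le P)
  obtain ⟨A, hA⟩ := maxAbIn_nonempty P
  rw [dAb_eq hA]
  exact le_dAb (le_thompsonSubgroupAOf hA) hA.2.1

theorem thompson_thompson [Finite P] :
    thompsonSubgroupAOf (thompsonSubgroupAOf P) = thompsonSubgroupAOf P := by
  refine le_antisymm (thompsonSubgroupAOf_le _) ?_
  haveI := finite_of_le (thompsonSubgroupAOf_le P)
  conv_lhs => rw [thompsonSubgroupAOf_eq_sSup]
  refine sSup_le fun A hA => le_thompsonSubgroupAOf ?_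
  exact mem_maxAbIn_iff.2 ⟨le_thompsonSubgroupAOf hA, hA.2.1, (dAb_eq hA).symm.trans dAb_thompson.symm⟩

/-- A subgroup centralized by `P` lies in the Thompson subgroup of `P`. -/
theorem le_thompson_of_central [Finite P] {Y : Subgroup Ω} (hY : Y ≤ P)
    (hc : ∀ y ∈ Y, ∀ x ∈ P, y * x = x * y) : Y ≤ thompsonSubgroupAOf P := by
  obtain ⟨A, hA⟩ := maxAbIn_nonempty P
  have hAY : IsMulCommutative (A ⊔ Y : Subgroup Ω) := by
    rw [← Subgroup.le_centralizer_iff_isMulCommutative]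
    refine sup_le ?_ ?_ <;> rw [Subgroup.le_centralizer_iff] <;> refine sup_le ?_ ?_
    · exact Subgroup.le_centralizer_iff_isMulCommutative.2 hA.2.1
    · exact fun y hy => Subgroup.mem_centralizer_iff.2 fun a ha => (hc y hy a (hA.1 ha)).symm
    · exact fun a ha => Subgroup.mem_centralizer_iff.2 fun y hy => hc y hy a (hA.1 ha)
    · exact fun y hy => Subgroup.mem_centralizer_iff.2 fun y' hy' => hc y' hy' y (hY hy)
  haveI := finite_of_le (sup_le hA.1 hY)
  have hle : A ⊔ Y = A := (Subgroup.eq_of_le_of_card_ge le_sup_left (hA.2.2 _ (sup_le hA.1 hY) hAY)).symm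
  exact (le_sup_right.trans hle.le).trans (le_thompsonSubgroupAOf hA)

/-! ### Images under injective maps -/

/-- The image of `R` under a map defined on `P`. -/
abbrev im {P : Subgroup Ω} (φ : P →* Ω) (R : Subgroup Ω) : Subgroup Ω := (R.subgroupOf P).map φ

theorem im_mono {φ : P →* Ω} {R R' : Subgroup Ω} (h : R ≤ R') : im φ R ≤ im φ R' :=
  Subgroup.map_mono fun _ hx => h hx

theorem card_im {φ : P →* Ω} (hφ : Function.Injective φ) {R : Subgroup Ω} (hR : R ≤ P) :
    Nat.card (im φ R) = Nat.card R := by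
  rw [im, Subgroup.card_map_of_injective hφ]
  exact Nat.card_congr (Subgroup.subgroupOfEquivOfLe hR).toEquiv

theorem exists_preimage {φ : P →* Ω} (hφ : Function.Injective φ) {R B : Subgroup Ω} (hR : R ≤ P)
    (hB : B ≤ im φ R) : ∃ C ≤ R, im φ C = B ∧ (IsMulCommutative B → IsMulCommutative C) := by
  refine ⟨(B.comap φ).map P.subtype, ?_, ?_, fun h => comm_map _ (comm_comap φ hφ h)⟩
  · rintro _ ⟨x, hx, rfl⟩
    obtain ⟨y, hy, he⟩ := hB hx
    exact (hφ he) ▸ hy
  · rw [im, Subgroup.subgroupOf, Subgroup.comap_map_eq_self_of_injective P.subtype_injective,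
      Subgroup.map_comap_eq_self]
    exact hB.trans (Subgroup.map_le_range _ _)

theorem maxAbIn_im [Finite P] {φ : P →* Ω} (hφ : Function.Injective φ) {R : Subgroup Ω} (hR : R ≤ P) :
    dAb (im φ R) = dAb R ∧ thompsonSubgroupAOf (im φ R) = im φ (thompsonSubgroupAOf R) := by
  haveI := finite_of_le hR
  haveI : Finite (im φ R) := Nat.finite_of_card_ne_zero (by rw [card_im hφ hR]; exact Nat.card_pos.ne')
  have hd : dAb (im φ R) = dAb R := by
    refine le_antisymm ?_ ?_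
    · obtain ⟨B, hB⟩ := maxAbIn_nonempty (im φ R)
      obtain ⟨C, hC, rfl, hCc⟩ := exists_preimage hφ hR hB.1
      rw [dAb_eq hB, card_im hφ (hC.trans hR)]
      exact le_dAb hC (hCc hB.2.1)
    · obtain ⟨A, hA⟩ := maxAbIn_nonempty R
      rw [dAb_eq hA, ← card_im hφ (hA.1.trans hR)]
      exact le_dAb (im_mono hA.1) (comm_map _ (comm_comap _ P.subtype_injective hA.2.1))
  refine ⟨hd, le_antisymm ?_ ?_⟩
  · rw [thompsonSubgroupAOf_eq_sSup]
    refine sSup_le fun B hB => ?_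
    obtain ⟨C, hC, rfl, hCc⟩ := exists_preimage hφ hR hB.1
    refine im_mono (le_thompsonSubgroupAOf (mem_maxAbIn_iff.2 ⟨hC, hCc hB.2.1, ?_⟩))
    rw [← card_im hφ (hC.trans hR), ← dAb_eq hB, hd]
  · rintro _ ⟨x, hx, rfl⟩
    have hx' : (x : Ω) ∈ thompsonSubgroupAOf R := hx
    revert x
    suffices thompsonSubgroupAOf R ≤ ((thompsonSubgroupAOf (im φ R)).comap φ).map P.subtype by
      intro x _ hx'
      obtain ⟨y, hy, he⟩ := this hx'
      exact P.subtype_injective he ▸ hy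
    rw [thompsonSubgroupAOf_eq_sSup R]
    refine sSup_le fun A hA a ha => ⟨⟨a, hR (hA.1 ha)⟩, ?_, rfl⟩
    refine le_thompsonSubgroupAOf (mem_maxAbIn_iff.2 ⟨im_mono hA.1,
      comm_map _ (comm_comap _ P.subtype_injective hA.2.1), ?_⟩) ⟨⟨a, hR (hA.1 ha)⟩, ha, rfl⟩
    rw [card_im hφ (hA.1.trans hR), hd, dAb_eq hA]

end Cfsg.Agent.FFTorus
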