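import Mathlib
import Cfsg.Agent.FFTorus.Main
import Cfsg.Agent.FFTorus.Key
import Cfsg.Agent.Modules.Replacement
import Cfsg.Agent.Modules.Fixed
import Cfsg.Agent.FusionSys.Saturation

set_option autoImplicit false

/-!
A central subgroup of `S` stabilized by the automorphisms of `J(S)` is weakly closed, or an
automorphism of order prime to `p` permutes the non-trivial elements of its commutator with it
transitively.
-/

open scoped Pointwise commutatorElement

namespace Cfsg.Agent.FFTorus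

open Cfsg.Agent.Modules Cfsg.Agent.FusionSys
open FusionSystem (centralizerIn normalizerIn extender)
open LAE79 (fixV stabV pointwiseV)

variable {Ω : Type*} [Group Ω] {S : Subgroup Ω}

/-- The largest abelian order first, the order of the Thompson subgroup second. -/
noncomputable def key (S P : Subgroup Ω) : ℕ :=
  dAb P * (Nat.card S + 1) + Nat.card (thompsonSubgroupAOf P)

theorem key_mono [Finite S] {P Q : Subgroup Ω} (h : P ≤ Q) (hQ : Q ≤ S) :
    key S P ≤ key S Q ∧ (key S P = key S Q →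
      dAb P = dAb Q ∧ thompsonSubgroupAOf P = thompsonSubgroupAOf Q) := by
  haveI : Finite Q := finite_of_le hQ
  haveI : Finite P := finite_of_le h
  rcases (dAb_mono h).lt_or_eq with hd | hd
  · have h1 : Nat.card (thompsonSubgroupAOf P) ≤ Nat.card S :=
      Subgroup.card_le_of_le ((thompsonSubgroupAOf_le P).trans (h.trans hQ))
    have hlt : key S P < key S Q := by
      unfold key
      calc dAb P * (Nat.card S + 1) + Nat.card (thompsonSubgroupAOf P)
          < (dAb P + 1) * (Nat.card S + 1) := by linarith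
        _ ≤ dAb Q * (Nat.card S + 1) := Nat.mul_le_mul_right _ hd
        _ ≤ _ := Nat.le_add_right _ _
    exact ⟨hlt.le, fun e => absurd e hlt.ne⟩
  · have hJ := thompson_mono h hd
    haveI : Finite (thompsonSubgroupAOf Q) := finite_of_le (thompsonSubgroupAOf_le Q)
    unfold key
    rw [hd]
    exact ⟨Nat.add_le_add_left (Subgroup.card_le_of_le hJ) _, fun e =>
      ⟨rfl, Subgroup.eq_of_le_of_card_ge hJ (Nat.add_left_cancel e).ge⟩⟩

theorem key_thompson [Finite S] {P : Subgroup Ω} (hP : P ≤ S) :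
    key S (thompsonSubgroupAOf P) = key S P := by
  haveI := finite_of_le hP
  unfold key
  rw [dAb_thompson, thompson_thompson]

theorem key_im [Finite S] {P : Subgroup Ω} {φ : P →* Ω} (hP : P ≤ S) (hφ : Function.Injective φ)
    {R : Subgroup Ω} (hR : R ≤ P) : key S (im φ R) = key S R := by
  haveI := finite_of_le hP
  obtain ⟨h1, h2⟩ := maxAbIn_im hφ hR
  unfold key
  rw [h1, h2, card_im hφ ((thompsonSubgroupAOf_le R).trans hR)]

/-- A subgroup of `S` that is the Thompson subgroup of its normalizer is `J(S)`. -/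
theorem eq_thompson_of_normalizer [Finite S] {p : ℕ} [Fact p.Prime] (hS : IsPGroup p S)
    {Q : Subgroup Ω} (hQ : Q ≤ S) (h : thompsonSubgroupAOf (normalizerIn S Q) = Q) :
    thompsonSubgroupAOf S = Q := by
  have hN : normalizerIn S Q = S := by
    by_contra hne
    haveI := hS.isNilpotent
    have hlt : (normalizerIn S Q).subgroupOf S < ⊤ := lt_top_iff_ne_top.2 fun e =>
      hne (le_antisymm inf_le_left (Subgroup.subgroupOf_eq_top.1 e))
    obtain ⟨x, hxn, hx⟩ := SetLike.exists_of_lt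
      (Group.normalizerCondition_of_isNilpotent (G := S) _ hlt)
    refine hx ⟨x.2, ?_⟩
    have hconj : ∀ y ∈ normalizerIn S Q, (x : Ω) * y * (x : Ω)⁻¹ ∈ normalizerIn S Q := fun y hy =>
      (Subgroup.mem_normalizer_iff.1 hxn ⟨y, hy.1⟩).1 hy
    haveI : Finite (normalizerIn S Q) := finite_of_le inf_le_left
    set φ : normalizerIn S Q →* Ω := conjHom (normalizerIn S Q) (x : Ω)
    have hinj : Function.Injective φ := fun a b hab =>
      Subtype.ext (mul_left_cancel (mul_right_cancel hab))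
    have himN : im φ (normalizerIn S Q) = normalizerIn S Q := by
      refine Subgroup.eq_of_le_of_card_ge ?_ (card_im hinj le_rfl).ge
      rintro _ ⟨y, -, rfl⟩
      exact hconj y y.2
    have h2 := (maxAbIn_im hinj (le_refl (normalizerIn S Q))).2
    rw [himN, h] at h2
    haveI := finite_of_le hQ
    refine Subgroup.mem_normalizer_fintype fun q hq => ?_
    rw [SetLike.mem_coe, h2]
    exact ⟨⟨q, le_inf hQ Subgroup.le_normalizer hq⟩, hq, rfl⟩
  rwa [hN] at h

section Saturated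

variable [Finite S] {p : ℕ} [hp : Fact p.Prime] {F : FusionSystem S} {T₀ : Subgroup Ω}

/-- A map moving `T₀`. -/
def Moves (F : FusionSystem S) (T₀ P : Subgroup Ω) (φ : P →* Ω) : Prop :=
  φ ∈ F.Hom P ∧ T₀ ≤ P ∧ im φ T₀ ≠ T₀

theorem mem_im {P : Subgroup Ω} {φ : P →* Ω} {R : Subgroup Ω} {y : Ω} :
    y ∈ im φ R ↔ ∃ x : P, (x : Ω) ∈ R ∧ φ x = y :=
  mem_map_subgroupOf φ

/-- An automorphism of a subgroup containing `T₀` that maps `T₀` into itself, restricted to it. -/
theorem exists_restrict (hS : T₀ ≤ S) {E : Subgroup Ω} (hTE : T₀ ≤ E) (hES : E ≤ S)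
    {γ : MulAut E} (hγ : γ ∈ F.autGroup E) (hst : ∀ t : E, (t : Ω) ∈ T₀ → (γ t : Ω) ∈ T₀) :
    ∃ ψ ∈ F.autGroup T₀, ∀ t : T₀, (ψ t : Ω) = γ ⟨t, hTE t.2⟩ := by
  haveI := finite_of_le hS
  let f : T₀ →* T₀ := MonoidHom.mk' (fun t => ⟨γ ⟨t, hTE t.2⟩, hst _ t.2⟩) fun a b =>
    Subtype.ext (congrArg Subtype.val (MulEquiv.map_mul γ (⟨a, hTE a.2⟩ : E) ⟨b, hTE b.2⟩) :)
  have hinj : Function.Injective f := fun a b h =>
    Subgroup.inclusion_injective hTE (γ.injective (Subtype.ext (congrArg Subtype.val h :)))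
  refine ⟨MulEquiv.ofBijective f ⟨hinj, Finite.surjective_of_injective hinj⟩, ?_, fun _ => rfl⟩
  exact (mem_autGroup F hS).2 (mem_of_restricts F hTE (autGroup_mem_hom F hES hγ) fun _ => rfl)

/-- The core of the argument. -/
theorem dichotomy (hp2 : p ≠ 2) (hS : IsPGroup p S) (hF : F.IsSaturated p)
    (hT : T₀ ≤ S ⊓ Subgroup.centralizer (S : Set Ω))
    (hJ : ∀ φ ∈ F.Hom (thompsonSubgroupAOf S), φ.range = thompsonSubgroupAOf S →
      im φ T₀ = T₀) :
    F.WeaklyClosed T₀ ∨ ∃ ψ ∈ F.autGroup T₀, (∃ n : ℕ, n.Coprime p ∧ ψ ^ n = 1) ∧ ψ ≠ 1 ∧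
      ∀ a b : T₀, a ∈ Subgroup.closure {y : T₀ | ∃ t : T₀, y = ψ t * t⁻¹} →
        b ∈ Subgroup.closure {y : T₀ | ∃ t : T₀, y = ψ t * t⁻¹} → a ≠ 1 → b ≠ 1 →
        ∃ k : ℕ, (ψ ^ k) a = b := by
  classical
  have hTS : T₀ ≤ S := hT.trans inf_le_left
  have hTc : ∀ t ∈ T₀, ∀ s ∈ S, t * s = s * t := fun t ht s hs => ((hT ht).2 s hs).symm
  by_cases hwc : F.WeaklyClosed T₀
  · exact Or.inl hwc
  right
  -- a moving map with the largest key
  obtain ⟨φ₀, hφ₀, hne⟩ : ∃ φ ∈ F.Hom T₀, φ.range ≠ T₀ := by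
    by_contra h
    push Not at h
    exact hwc ⟨hTS, h⟩
  have hmov₀ : Moves F T₀ T₀ φ₀ := ⟨hφ₀, le_rfl, by
    rwa [im, Subgroup.subgroupOf_self, ← MonoidHom.range_eq_map]⟩
  obtain ⟨P, ⟨hPS, φ, hφ⟩, hmax⟩ := Set.exists_max_image
    {P : Subgroup Ω | P ≤ S ∧ ∃ φ, Moves F T₀ P φ} (key S)
    ((setOf_le_finite (S := S)).subset fun Q hQ => hQ.1) ⟨T₀, hTS, φ₀, hmov₀⟩
  set μ := key S P with hμ
  have hfix : ∀ {R : Subgroup Ω} {χ : R →* Ω}, χ ∈ F.Hom R → T₀ ≤ R → μ < key S R → im χ T₀ = T₀ := by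
    intro R χ hχ hTR hlt
    by_contra hne
    exact (hmax R ⟨le_S F hχ, χ, hχ, hTR, hne⟩).not_gt hlt
  -- pass to the Thompson subgroup
  set Q := thompsonSubgroupAOf P with hQdef
  have hQP : Q ≤ P := thompsonSubgroupAOf_le P
  haveI := finite_of_le hPS
  have hTQ : T₀ ≤ Q := le_thompson_of_central hφ.2.1 fun t ht x hx => hTc t ht x (hPS hx)
  set φQ := restr hQP φ with hφQ
  have hφQm : φQ ∈ F.Hom Q := restr_mem F hQP hφ.1
  have himres : ∀ R ≤ Q, im φQ R = im φ R := by
    intro R hR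
    ext y
    rw [mem_im, mem_im]
    constructor
    · rintro ⟨x, hx, rfl⟩; exact ⟨Subgroup.inclusion hQP x, hx, rfl⟩
    · rintro ⟨x, hx, rfl⟩; exact ⟨⟨x, hR hx⟩, hx, rfl⟩
  set Q2 := φQ.range with hQ2
  have hQkey : key S Q = μ := key_thompson hPS
  have hQS : Q ≤ S := hQP.trans hPS
  haveI := finite_of_le hQS
  have hQJ : thompsonSubgroupAOf Q = Q := thompson_thompson
  have hQ2im : Q2 = im φQ Q := by rw [hQ2, im, Subgroup.subgroupOf_self, MonoidHom.range_eq_map]
  have hQ2S : Q2 ≤ S := range_le_S F hφQm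
  have hQ2key : key S Q2 = μ := by
    rw [hQ2im, key_im hQS (F.injective_of_mem hφQm) le_rfl, hQkey]
  have hQ2J : thompsonSubgroupAOf Q2 = Q2 := by
    rw [hQ2im, (maxAbIn_im (F.injective_of_mem hφQm) le_rfl).2, hQJ]
  have hmovQ : im φQ T₀ ≠ T₀ := by rw [himres T₀ hTQ]; exact hφ.2.2
  -- equality of keys forces `J(S)`
  have hJeq : ∀ R : Subgroup Ω, R ≤ S → thompsonSubgroupAOf R = R →
      key S R = key S (normalizerIn S R) → R = thompsonSubgroupAOf S := by
    intro R hR hRJ he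
    have h := ((key_mono (S := S) (le_inf hR Subgroup.le_normalizer) inf_le_left).2 he).2
    exact (eq_thompson_of_normalizer hS hR (h.symm.trans hRJ)).symm
  have hJkey : ∀ R : Subgroup Ω, R ≤ S → thompsonSubgroupAOf R = R → key S R = μ →
      μ = key S (thompsonSubgroupAOf S) → R = thompsonSubgroupAOf S := by
    intro R hR hRJ hk he
    rw [key_thompson le_rfl] at he
    rw [← ((key_mono (S := S) hR le_rfl).2 (hk.trans he)).2, hRJ]
  have hnotJ : μ ≠ key S (thompsonSubgroupAOf S) := by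
    intro he
    have e1 := hJkey Q hQS hQJ hQkey he
    have e2 := hJkey Q2 hQ2S hQ2J hQ2key he
    apply hmovQ
    have hr := range_restr (le_of_eq e1.symm) φQ
    rw [show (thompsonSubgroupAOf S).subgroupOf Q = ⊤ from Subgroup.subgroupOf_eq_top.2 e1.le,
      ← MonoidHom.range_eq_map, ← hQ2, e2] at hr
    have h2 := hJ _ (restr_mem F (le_of_eq e1.symm) hφQm) hr
    refine Eq.trans ?_ h2
    ext y
    rw [mem_im, mem_im]
    constructor
    · rintro ⟨x, hx, rfl⟩; exact ⟨⟨x, e1.le x.2⟩, hx, rfl⟩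
    · rintro ⟨x, hx, rfl⟩; exact ⟨⟨x, e1.ge x.2⟩, hx, rfl⟩
  have hNlt : ∀ R : Subgroup Ω, R ≤ S → thompsonSubgroupAOf R = R → key S R = μ →
      μ < key S (normalizerIn S R) := by
    intro R hR hRJ hk
    refine lt_of_le_of_ne (hk ▸ (key_mono (le_inf hR Subgroup.le_normalizer) inf_le_left).1) fun he => ?_
    exact hnotJ (by rw [← hJeq R hR hRJ (hk.trans he), hk])
  -- a fully normalized conjugate
  obtain ⟨Qs, hQQs, hQsfn⟩ := exists_fullyNormalized F hQS
  have hQ2Qs : F.IsConj Q2 Qs := isConj_trans (isConj_symm ⟨φQ, hφQm, rfl⟩) hQQs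
  obtain ⟨ψ1, hψ1, hψ1N, hψ1Q⟩ := exists_normalizer_map_fullyNormalized hS hF hQsfn hQQs
  obtain ⟨ψ2, hψ2, hψ2N, hψ2Q⟩ := exists_normalizer_map_fullyNormalized hS hF hQsfn hQ2Qs
  have hTN : ∀ R : Subgroup Ω, R ≤ S → T₀ ≤ normalizerIn S R := fun R hR t ht =>
    centralizerIn_le_normalizerIn R (mem_centralizerIn_iff_conj.2
      ⟨hTS ht, fun x => by rw [hTc t ht x (hR x.2), mul_inv_cancel_right]⟩)
  have hψ1T : im ψ1 T₀ = T₀ := hfix hψ1 (hTN Q hQS) (hNlt Q hQS hQJ hQkey)
  have hψ2T : im ψ2 T₀ = T₀ := hfix hψ2 (hTN Q2 hQ2S) (hNlt Q2 hQ2S hQ2J hQ2key)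
  -- the automorphism of `Qs`
  have hQN : Q ≤ normalizerIn S Q := le_inf hQS Subgroup.le_normalizer
  have hQ2N : Q2 ≤ normalizerIn S Q2 := le_inf hQ2S Subgroup.le_normalizer
  have hQskey : key S Qs = μ := by
    rw [← hψ1Q]
    exact (key_im inf_le_left (F.injective_of_mem hψ1) hQN).trans hQkey
  have hQsS : Qs ≤ S := hQsfn.1
  have hQsJ : thompsonSubgroupAOf Qs = Qs := by
    haveI : Finite (normalizerIn S Q) := finite_of_le (inf_le_left : normalizerIn S Q ≤ S)
    conv_lhs => rw [← hψ1Q]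
    rw [show (Q.subgroupOf (normalizerIn S Q)).map ψ1 = im ψ1 Q from rfl,
      (maxAbIn_im (F.injective_of_mem hψ1) hQN).2, hQJ]
    exact hψ1Q
  have hr1 : (restr hQN ψ1).range = Qs := (range_restr hQN ψ1).trans hψ1Q
  have hr2 : (restr hQ2N ψ2).range = Qs := (range_restr hQ2N ψ2).trans hψ2Q
  let e1 := toIso F (restr_mem F hQN hψ1) hr1
  let e2 := toIso F (restr_mem F hQ2N hψ2) hr2
  let eφ := toIso F hφQm (rfl : φQ.range = Q2)
  set θ : MulAut Qs := (e1.symm.trans eφ).trans e2 with hθdef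
  have hθ : θ ∈ F.autGroup Qs := (mem_autGroup F hQsS).2
    (((toIso_isIso F _ hr1).symm.trans (toIso_isIso F hφQm rfl)).trans (toIso_isIso F _ hr2))
  have he1T : ∀ x : Q, ((x : Ω) ∈ T₀ ↔ (e1 x : Ω) ∈ T₀) := by
    intro x
    constructor
    · intro hx
      exact hψ1T.le (mem_im.2 ⟨Subgroup.inclusion hQN x, hx, rfl⟩)
    · intro hx
      obtain ⟨y, hy, he⟩ := mem_im.1 (hψ1T.ge hx)
      have : y = Subgroup.inclusion hQN x := F.injective_of_mem hψ1 he
      rw [this] at hy
      exact hy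
  have hTQs : T₀ ≤ Qs := by
    intro t ht
    obtain ⟨y, hy, rfl⟩ := mem_im.1 (hψ1T.ge ht)
    exact hr1.le ⟨⟨y, hTQ hy⟩, rfl⟩
  have hθmove : ¬ ∀ x : Qs, (x : Ω) ∈ T₀ → (θ x : Ω) ∈ T₀ := by
    intro hst
    apply hmovQ
    have hle : im φQ T₀ ≤ T₀ := by
      intro y hy
      obtain ⟨x, hx, rfl⟩ := mem_im.1 hy
      have h1 := hst (e1 x) ((he1T x).1 hx)
      have h2 : (θ (e1 x) : Ω) = ψ2 (Subgroup.inclusion hQ2N ⟨φQ x, ⟨x, rfl⟩⟩) := by
        show ((e2 (eφ (e1.symm (e1 x)))) : Ω) = _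
        rw [MulEquiv.symm_apply_apply]
        rfl
      rw [h2] at h1
      obtain ⟨z, hz, he⟩ := mem_im.1 (hψ2T.ge h1)
      have hz' := F.injective_of_mem hψ2 he
      rw [hz'] at hz
      exact hz
    haveI := finite_of_le hTS
    exact Subgroup.eq_of_le_of_card_ge hle (card_im (F.injective_of_mem hφQm) hTQ).ge
  -- the centric subgroup `E`
  set E := Qs ⊔ centralizerIn S Qs with hEdef
  have hQsE : Qs ≤ E := le_sup_left
  have hES : E ≤ S := sup_le hQsS inf_le_left
  set θh : Qs →* Ω := Qs.subtype.comp θ.toMonoidHom with hθh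
  have hθhm : θh ∈ F.Hom Qs := autGroup_mem_hom F hQsS hθ
  have hθhr : θh.range = Qs := range_subtype_comp θ
  obtain ⟨χ, hχ, hχe, hχN, hχQ⟩ :=
    receptive_extend (saturated_receptive_of_fullyNormalized hS hF hQsfn) hθhm hθhr
  have hEext : E ≤ extender S Qs θh :=
    sup_le (le_extender hQsS (map_mem_S F hθhm)) (centralizerIn_le_extender θh)
  set γh := restr hEext χ with hγhdef
  have hγhm : γh ∈ F.Hom E := restr_mem F hEext hχ
  have hγhr : γh.range = E := by
    haveI := finite_of_le hES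
    refine range_eq_of_image_le (F.injective_of_mem hγhm) ?_ le_rfl
    rintro _ ⟨x, rfl⟩
    have key2 : ∀ x : extender S Qs θh, (x : Ω) ∈ E → χ x ∈ E := by
      intro x hx
      revert x
      suffices E ≤ (E.comap χ).map (extender S Qs θh).subtype by
        intro x hx
        obtain ⟨y, hy, he⟩ := this hx
        exact Subtype.ext he ▸ hy
      refine sup_le (fun q hq => ⟨⟨q, hEext (hQsE hq)⟩, hQsE ?_, rfl⟩)
        (fun c hc => ⟨⟨c, centralizerIn_le_extender θh hc⟩, Subgroup.mem_sup_right ?_, rfl⟩)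
      · exact hχQ.le ⟨⟨q, hEext (hQsE hq)⟩, hq, rfl⟩
      · exact mem_centralizerIn.2 ⟨map_mem_S F hχ _, map_mem_centralizer
          (le_extender hQsS (map_mem_S F hθhm)) hχQ fun y hy => (mem_centralizerIn.1 hc).2 y hy⟩
    exact key2 _ x.2
  set γ0 := toIso F hγhm hγhr with hγ0def
  have hγ0 : γ0 ∈ F.autGroup E := toIso_mem_autGroup F hγhm hγhr
  have hTE : T₀ ≤ E := hTQs.trans hQsE
  have hγ0Q : ∀ x : Qs, (γ0 (Subgroup.inclusion hQsE x) : Ω) = θ x := fun x => hχe x
  have hmovE : ¬ ∀ t : E, (t : Ω) ∈ T₀ → (γ0 t : Ω) ∈ T₀ := fun hst => hθmove fun x hx => by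
    rw [← hγ0Q]; exact hst _ hx
  have hkeyE : key S E = μ := by
    refine le_antisymm (hmax E ⟨hES, γh, hγhm, hTE, fun he => hmovE fun t ht => he.le
      (mem_im.2 ⟨t, ht, rfl⟩)⟩) ?_
    rw [← hQskey]
    exact (key_mono hQsE hES).1
  haveI := finite_of_le hES
  have hEJ : dAb Qs = dAb E ∧ thompsonSubgroupAOf E = Qs := by
    obtain ⟨h1, h2⟩ := (key_mono hQsE hES).2 (hQskey.trans hkeyE.symm)
    exact ⟨h1, h2.symm.trans hQsJ⟩
  set S1 := normalizerIn S Qs with hS1
  have hS1E : E ≤ S1 := sup_le (le_inf hQsS Subgroup.le_normalizer) (centralizerIn_le_normalizerIn Qs)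
  have hS1key : μ < key S S1 := hNlt Qs hQsS hQsJ hQskey
  haveI : Finite S1 := finite_of_le (inf_le_left : normalizerIn S Qs ≤ S)
  -- `S1` is the normalizer of `E`
  have hnormJ : ∀ R : Subgroup Ω, R ≤ S → normalizerIn S R ≤ normalizerIn S (thompsonSubgroupAOf R) := by
    intro R hR g hg
    haveI := finite_of_le hR
    haveI := finite_of_le ((thompsonSubgroupAOf_le R).trans hR)
    refine ⟨hg.1, Subgroup.mem_normalizer_fintype fun q hq => ?_⟩
    set c : R →* Ω := conjHom R g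
    have hinj : Function.Injective c := fun a b hab =>
      Subtype.ext (mul_left_cancel (mul_right_cancel hab))
    have hcim : im c R = R := Subgroup.eq_of_le_of_card_ge (by
      rintro _ ⟨y, -, rfl⟩
      exact (Subgroup.mem_normalizer_iff.1 hg.2 (y : Ω)).1 y.2) (card_im hinj le_rfl).ge
    have h2 := (maxAbIn_im hinj (le_refl R)).2
    rw [hcim] at h2
    rw [h2]
    exact ⟨⟨q, thompsonSubgroupAOf_le R hq⟩, hq, rfl⟩
  have hS1N : S1 ≤ normalizerIn S E := by
    intro g hg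
    refine ⟨hg.1, Subgroup.normalizer_inf_normalizer_le_normalizer_sup Qs (centralizerIn S Qs) ⟨hg.2, ?_⟩⟩
    haveI : Finite (centralizerIn S Qs) := finite_of_le inf_le_left
    refine Subgroup.mem_normalizer_fintype fun c hc => ?_
    refine mem_centralizerIn.2 ⟨S.mul_mem (S.mul_mem hg.1 hc.1) (S.inv_mem hg.1), fun x hx => ?_⟩
    have hx' : g⁻¹ * x * g ∈ Qs := by
      have := (Subgroup.mem_normalizer_iff.1 (inv_mem hg.2) x).1 hx
      simpa using this
    have h2 := (mem_centralizerIn.1 hc).2 _ hx'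
    calc x * (g * c * g⁻¹) = g * ((g⁻¹ * x * g) * c) * g⁻¹ := by group
      _ = g * (c * (g⁻¹ * x * g)) * g⁻¹ := by rw [h2]
      _ = g * c * g⁻¹ * x := by group
  have hEfn : F.IsFullyNormalized E := by
    refine ⟨hES, fun E' hE' => ?_⟩
    obtain ⟨c, hc, rfl⟩ := hE'
    have hr : c.range = im c E := by rw [im, Subgroup.subgroupOf_self, MonoidHom.range_eq_map]
    have hcJ : thompsonSubgroupAOf c.range = im c Qs := by
      rw [hr, (maxAbIn_im (F.injective_of_mem hc) le_rfl).2, hEJ.2]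
    have hconj : F.IsConj Qs (im c Qs) := ⟨restr hQsE c, restr_mem F hQsE hc, range_restr hQsE c⟩
    calc Nat.card (normalizerIn S c.range)
        ≤ Nat.card (normalizerIn S (im c Qs)) := by
          haveI : Finite (normalizerIn S (im c Qs)) := finite_of_le (inf_le_left : normalizerIn S (im c Qs) ≤ S)
          exact Subgroup.card_le_of_le (hcJ ▸ hnormJ _ (range_le_S F hc))
      _ ≤ Nat.card S1 := hQsfn.2 _ hconj
      _ ≤ Nat.card (normalizerIn S E) := by
          haveI : Finite (normalizerIn S E) := finite_of_le (inf_le_left : normalizerIn S E ≤ S)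
          exact Subgroup.card_le_of_le hS1N
  set G := F.autGroup E with hG
  obtain ⟨-, -, R, hR⟩ := saturated_fullyNormalized hS hF hEfn
  have hErec := saturated_receptive_of_fullyNormalized hS hF hEfn
  -- the action on the centre of `E`
  haveI : Finite G := inferInstance
  letI : CommGroup (Subgroup.center E) :=
    { (inferInstance : Group (Subgroup.center E)) with
      mul_comm := fun a b => Subtype.ext (Subgroup.mem_center_iff.1 b.2 a) }
  let V := Additive (Subgroup.center E)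
  letI : AddCommGroup V := Additive.addCommGroup
  have hcmem : ∀ (γ : G) (v : Subgroup.center E), (γ : MulAut E) (v : E) ∈ Subgroup.center E := by
    intro γ v
    rw [Subgroup.mem_center_iff]
    intro y
    obtain ⟨x, rfl⟩ := (γ : MulAut E).surjective y
    rw [← map_mul, ← map_mul, Subgroup.mem_center_iff.1 v.2 x]
  letI : DistribMulAction G V :=
    { smul := fun γ v => Additive.ofMul ⟨(γ : MulAut E) ((v.toMul : Subgroup.center E) : E), hcmem γ _⟩
      one_smul := fun v => Additive.toMul.injective (Subtype.ext rfl)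
      mul_smul := fun γ δ v => Additive.toMul.injective (Subtype.ext rfl)
      smul_zero := fun γ => Additive.toMul.injective (Subtype.ext (map_one (γ : MulAut E)))
      smul_add := fun γ u v => Additive.toMul.injective (Subtype.ext (map_mul (γ : MulAut E) _ _)) }
  let val : V → Ω := fun v => (((v.toMul : Subgroup.center E) : E) : Ω)
  have hvinj : Function.Injective val := fun u v h =>
    Additive.toMul.injective (Subtype.ext (Subtype.ext h))
  have hsmul : ∀ (γ : G) (v : V), val (γ • v) = ((γ : MulAut E) ((v.toMul : Subgroup.center E) : E) : Ω) :=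
    fun _ _ => rfl
  have hval_add : ∀ u v, val (u + v) = val u * val v := fun _ _ => rfl
  have hval_sub : ∀ u v, val (u - v) = val u * (val v)⁻¹ := fun u v => by
    rw [sub_eq_add_neg, hval_add]; rfl
  let T₁ : AddSubgroup V :=
    { carrier := {v | val v ∈ T₀}
      zero_mem' := T₀.one_mem
      add_mem' := fun ha hb => T₀.mul_mem ha hb
      neg_mem' := fun ha => T₀.inv_mem ha }
  have hTcen : ∀ t : E, (t : Ω) ∈ T₀ → t ∈ Subgroup.center E := fun t ht =>
    Subgroup.mem_center_iff.2 fun y => Subtype.ext (hTc t ht y (hES y.2)).symm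
  let lift : ∀ t : E, (t : Ω) ∈ T₀ → V := fun t ht => Additive.ofMul ⟨t, hTcen t ht⟩
  have hstab_iff : ∀ γ : G, γ ∈ stabV (P := G) T₁ ↔
      ∀ t : E, (t : Ω) ∈ T₀ → ((γ : MulAut E) t : Ω) ∈ T₀ := by
    intro γ
    refine ⟨fun h t ht => (h (lift t ht)).2 ht, fun h => LAE79.mem_stabV_of_forall fun v hv => ?_⟩
    exact h _ hv
  -- maps extended to more than `E`
  have hext : ∀ (γ : G) (R : Subgroup Ω), R ≤ extender S E (E.subtype.comp (γ : MulAut E).toMonoidHom) →
      μ < key S (R ⊔ E) → γ ∈ stabV (P := G) T₁ := by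
    intro γ R hR hlt
    set h := E.subtype.comp (γ : MulAut E).toMonoidHom
    have hm : h ∈ F.Hom E := autGroup_mem_hom F hES γ.2
    obtain ⟨η, hη, hηe, -, -⟩ := receptive_extend hErec hm (range_subtype_comp _)
    have hle : R ⊔ E ≤ extender S E h := sup_le hR (le_extender hES (map_mem_S F hm))
    have himT := hfix (restr_mem F hle hη) (hTE.trans le_sup_right) hlt
    rw [hstab_iff]
    intro t ht
    refine himT.le (mem_im.2 ⟨Subgroup.inclusion le_sup_right t, ht, ?_⟩)
    exact hηe t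
  -- `J(S1)` acts non-trivially
  set C := S1 ⊓ Subgroup.centralizer ((Subgroup.center E).map E.subtype : Set Ω) with hC
  have hECl : E ≤ C := le_inf hS1E fun x hx => Subgroup.mem_centralizer_iff.2 fun y hy => by
    obtain ⟨v, hv, rfl⟩ := hy
    exact (congrArg Subtype.val (Subgroup.mem_center_iff.1 hv ⟨x, hx⟩)).symm
  have hautmem : ∀ g ∈ S1, ∃ a : G, ∀ x : E, ((a : MulAut E) x : Ω) = g * x * g⁻¹ := by
    intro g hg
    refine ⟨⟨E.normalizerMonoidHom ⟨g, (hS1N hg).2⟩, autInducedBy_le_autGroup F hES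
      (mem_autInducedBy.2 ⟨g, hg.1, fun x => rfl⟩)⟩, fun x => rfl⟩
  have hJC : ∃ B ∈ maxAbIn S1, ¬ B ≤ C := by
    by_contra hno
    push Not at hno
    haveI := finite_of_le (inf_le_left.trans inf_le_left : C ≤ S)
    have hkC : μ < key S C := by
      refine lt_of_lt_of_le hS1key ?_
      have hJle : thompsonSubgroupAOf S1 ≤ C := by
        rw [thompsonSubgroupAOf_eq_sSup]; exact sSup_le hno
      refine le_trans (le_of_eq (key_thompson (S := S) (inf_le_left : normalizerIn S Qs ≤ S)).symm) ?_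
      exact (key_mono hJle (inf_le_left.trans inf_le_left)).1
    let ρ : G →* Equiv.Perm V := MulAction.toPermHom G V
    set K := ρ.ker
    have hK : ∀ k ∈ K, ∀ v : V, k • v = v := fun k hk v => by
      have := Equiv.congr_fun (MonoidHom.mem_ker.1 hk) v
      simpa [ρ] using this
    obtain ⟨RK, hRK⟩ :=
      (R.2.comap_of_injective K.subtype K.subtype_injective).exists_le_sylow
    have hRKeq : (RK : Subgroup K) = (R : Subgroup G).comap K.subtype := by
      obtain ⟨R', hR'⟩ := (RK.2.map K.subtype).exists_le_sylow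
      obtain ⟨g, hg⟩ := MulAction.exists_smul_eq G R' R
      refine (Subgroup.eq_of_le_of_card_ge hRK ?_).symm
      refine Nat.card_le_card_of_injective (fun x =>
        (⟨⟨g * ((x : K) : G) * g⁻¹, (inferInstance : K.Normal).conj_mem _ (x : K).2 g⟩, ?_⟩ :
          ↥((R : Subgroup G).comap K.subtype))) fun x y h => Subtype.ext (Subtype.ext
            (mul_left_cancel (mul_right_cancel (congrArg (fun z : ↥((R : Subgroup G).comap K.subtype) =>
              ((z : K) : G)) h))))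
      show g * ((x : K) : G) * g⁻¹ ∈ (R : Subgroup G)
      rw [← hg, Sylow.coe_subgroup_smul, Subgroup.mem_pointwise_smul_iff_inv_smul_mem]
      simpa [MulAut.smul_def, mul_assoc] using hR' ⟨x, x.2, rfl⟩
    have hfr := Sylow.normalizer_sup_eq_top RK
    refine hmovE ((hstab_iff ⟨γ0, hγ0⟩).1 ?_)
    refine (le_of_eq hfr.symm).trans (sup_le ?_ ?_) (Subgroup.mem_top _)
    · intro n hn
      refine hext n C ?_ (by rwa [sup_eq_left.2 hECl])
      intro c hc
      obtain ⟨a, ha⟩ := hautmem c hc.1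
      have haK : a ∈ K := by
        rw [MonoidHom.mem_ker]
        refine Equiv.ext fun v => ?_
        show a • v = v
        refine hvinj ?_
        rw [hsmul, ha, show c * val v * c⁻¹ = val v from ?_]
        rw [← Subgroup.mem_centralizer_iff.1 hc.2 (val v) ⟨_, (v.toMul : Subgroup.center E).2, rfl⟩,
          mul_inv_cancel_right]
      have haR : a ∈ (R : Subgroup G) := by
        rw [hR]
        exact mem_autInducedBy.2 ⟨c, hc.1.1, ha⟩
      have h1 : n * a * n⁻¹ ∈ (RK : Subgroup K).map K.subtype :=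
        (Subgroup.mem_normalizer_iff.1 hn a).1 ⟨⟨a, haK⟩, hRKeq.symm ▸ haR, rfl⟩
      obtain ⟨b, hb, hbe⟩ := h1
      have hbR : (b : G) ∈ (R : Subgroup G) := by rw [hRKeq] at hb; exact hb
      rw [hR] at hbR
      obtain ⟨c', hc', hc'e⟩ := mem_autInducedBy.1 (Subgroup.mem_subgroupOf.1 hbR)
      refine mem_extender.2 ⟨hc.1.1, (hS1N hc.1).2, c', hc', fun x hx => ?_⟩
      show ((n : MulAut E) ⟨c * x * c⁻¹, hx⟩ : Ω) = c' * ((n : MulAut E) x : Ω) * c'⁻¹
      rw [← hc'e, show (b : MulAut E) = (n : MulAut E) * a * (n : MulAut E)⁻¹ from congrArg Subtype.val hbe,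
        MulAut.mul_apply, MulAut.mul_apply, show (n : MulAut E)⁻¹ ((n : MulAut E) x) = x from
          (n : MulAut E).symm_apply_apply x,
        show (a : MulAut E) x = ⟨c * x * c⁻¹, hx⟩ from Subtype.ext (ha x)]
    · intro k hk
      rw [hstab_iff]
      intro t ht
      have h1 := congrArg val (hK k hk (lift t ht))
      rw [hsmul] at h1
      rw [show ((k : MulAut E) t : Ω) = (t : Ω) from h1]
      exact ht
  -- a quadratic member of `A(S1)`
  obtain ⟨B0, hB0, hB0C⟩ := hJC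
  set Z := (Subgroup.center E).map E.subtype with hZ
  have hZE : Z ≤ E := Subgroup.map_subtype_le _
  have hZc : IsMulCommutative Z := comm_iff.2 fun a ha b hb => by
    obtain ⟨x, hx, rfl⟩ := ha
    obtain ⟨y, -, rfl⟩ := hb
    exact congrArg Subtype.val (Subgroup.mem_center_iff.1 hx y).symm
  have hS1Z : S1 ≤ Subgroup.normalizer (Z : Set Ω) := by
    intro g hg
    haveI := finite_of_le (hZE.trans hES)
    refine Subgroup.mem_normalizer_fintype ?_
    rintro _ ⟨x, hx, rfl⟩
    obtain ⟨a, ha⟩ := hautmem g hg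
    exact ⟨(a : MulAut E) x, hcmem a ⟨x, hx⟩, ha x⟩
  obtain ⟨hB, hBquad⟩ := ab_replacement hB0 hZc (hZE.trans hS1E) (hB0.1.trans hS1Z)
  set B := ⁅Z, B0⁆ ⊔ (B0 ⊓ Subgroup.centralizer ((⁅Z, B0⁆ : Subgroup Ω) : Set Ω))
  have hDZ : ⁅Z, B0⁆ ≤ Z := commutator_le_of_normalizes (hB0.1.trans hS1Z)
  have hBC : ¬ B ≤ C := by
    intro hBC
    refine hB0C (le_inf hB0.1 ?_)
    have hZB : Z ≤ B := by
      have hab : IsMulCommutative (B ⊔ Z : Subgroup Ω) := by
        rw [← Subgroup.le_centralizer_iff_isMulCommutative]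
        have hBcZ : B ≤ Subgroup.centralizer (Z : Set Ω) := fun b hb => (hBC hb).2
        refine sup_le ?_ ?_ <;> rw [Subgroup.le_centralizer_iff] <;> refine sup_le ?_ ?_
        · exact Subgroup.le_centralizer_iff_isMulCommutative.2 hB.2.1
        · exact Subgroup.le_centralizer_iff.1 hBcZ
        · exact hBcZ
        · exact Subgroup.le_centralizer_iff_isMulCommutative.2 hZc
      haveI := finite_of_le (sup_le hB.1 (hZE.trans hS1E))
      exact le_sup_right.trans (Subgroup.eq_of_le_of_card_ge le_sup_left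
        (hB.2.2 _ (sup_le hB.1 (hZE.trans hS1E)) hab)).ge
    have hD0 : ⁅Z, B0⁆ = ⊥ := by
      haveI := finite_of_le (hZE.trans hES)
      refine commutator_eq_bot_of_le_commutator (p := p) (hS.to_le (hZE.trans hES)) (hB0.1.trans hS1Z)
        (fun a ha => ?_) (Subgroup.commutator_le.2 fun v hv b hb => ?_)
      · obtain ⟨k, hk⟩ := hS ⟨a, (hB0.1 ha).1⟩
        exact ⟨k, by rw [show a ^ p ^ k = 1 from congrArg Subtype.val hk]; exact one_mem _⟩
      · have hnorm : B0 ⊓ Subgroup.centralizer ((⁅Z, B0⁆ : Subgroup Ω) : Set Ω) ≤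
            Subgroup.normalizer ((⁅Z, B0⁆ : Subgroup Ω) : Set Ω) := fun x hx =>
          Subgroup.mem_normalizer_iff.2 fun y => by
            refine ⟨fun hy => ?_, fun hy => ?_⟩
            · rwa [← Subgroup.mem_centralizer_iff.1 hx.2 y hy, mul_inv_cancel_right]
            · have h3 := Subgroup.mem_centralizer_iff.1 hx.2 _ hy
              have h4 : x * y * x⁻¹ = y := by
                calc x * y * x⁻¹ = x⁻¹ * (x * (x * y * x⁻¹)) := by group
                  _ = x⁻¹ * ((x * y * x⁻¹) * x) := by rw [h3]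
                  _ = y := by group
              rwa [h4] at hy
        obtain ⟨d, hd, c, hc, rfl⟩ := Set.mem_mul.1 (show v ∈ ((⁅Z, B0⁆ : Subgroup Ω) : Set Ω) *
          ((B0 ⊓ Subgroup.centralizer ((⁅Z, B0⁆ : Subgroup Ω) : Set Ω) : Subgroup Ω) : Set Ω) by
            rw [← Subgroup.coe_mul_of_right_le_normalizer_left _ _ hnorm]; exact hZB hv)
        rw [show ⁅d * c, b⁆ = d * ⁅c, b⁆ * d⁻¹ * ⁅d, b⁆ by simp [commutatorElement_def, mul_assoc],
          commutatorElement_eq_one_iff_mul_comm.2 (comm_iff.1 hB0.2.1 c hc.1 b hb), mul_one,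
          mul_inv_cancel, one_mul]
        exact Subgroup.commutator_mem_commutator hd hb
    exact Subgroup.commutator_eq_bot_iff_le_centralizer.1 (by rw [Subgroup.commutator_comm, hD0])
  have hBkey : μ < key S (B ⊔ E) := by
    have hBE : B ⊔ E ≤ S := sup_le (hB.1.trans inf_le_left) hES
    haveI := finite_of_le hBE
    refine lt_of_le_of_ne (hkeyE ▸ (key_mono le_sup_right hBE).1) fun he => ?_
    obtain ⟨hd, hJ'⟩ := (key_mono (le_sup_right : E ≤ B ⊔ E) hBE).2 (hkeyE.trans he)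
    have hBmax : B ∈ maxAbIn (B ⊔ E) := mem_maxAbIn_iff.2 ⟨le_sup_left, hB.2.1,
      le_antisymm (le_dAb le_sup_left hB.2.1) (by
        rw [← dAb_eq hB]
        exact dAb_mono (sup_le hB.1 hS1E))⟩
    exact hBC (((le_thompsonSubgroupAOf hBmax).trans hJ'.ge).trans ((thompsonSubgroupAOf_le E).trans hECl))
  haveI hBfin : Finite B := finite_of_le (hB.1.trans (inf_le_left : normalizerIn S Qs ≤ S))
  let iB : B →* G :=
    ((E.normalizerMonoidHom).comp (Subgroup.inclusion (hB.1.trans (hS1N.trans inf_le_right)))).codRestrict G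
      fun b => autInducedBy_le_autGroup F hES
        (mem_autInducedBy.2 ⟨b, (hB.1 b.2).1, fun x => rfl⟩)
  have hiB : ∀ (b : B) (x : E), ((iB b : MulAut E) x : Ω) = (b : Ω) * x * (b : Ω)⁻¹ := fun _ _ => rfl
  have hiBv : ∀ (b : B) (v : V), val (iB b • v) = (b : Ω) * val v * (b : Ω)⁻¹ := fun _ _ => rfl
  set A := iB.range with hA
  have hAU : A ≤ (R : Subgroup G) := by
    rintro _ ⟨b, rfl⟩
    rw [hR]
    exact mem_autInducedBy.2 ⟨b, (hB.1 b.2).1, fun x => rfl⟩
  have hUT : ∀ u ∈ (R : Subgroup G), ∀ t ∈ T₁, u • t = t := by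
    intro u hu t ht
    rw [hR] at hu
    obtain ⟨g, hg, hge⟩ := mem_autInducedBy.1 (Subgroup.mem_subgroupOf.1 hu)
    refine hvinj ?_
    rw [hsmul, hge, ← hTc _ ht g hg, mul_inv_cancel_right]
  have hwcA : ∀ γ : G, (∀ a ∈ A, γ * a * γ⁻¹ ∈ (R : Subgroup G)) → γ ∈ stabV (P := G) T₁ := by
    intro γ hγ
    refine hext γ B (fun b hb => ?_) hBkey
    have h1 := hγ _ ⟨⟨b, hb⟩, rfl⟩
    rw [hR] at h1
    obtain ⟨h', hh', hh'e⟩ := mem_autInducedBy.1 (Subgroup.mem_subgroupOf.1 h1)
    refine mem_extender.2 ⟨(hB.1 hb).1, (hS1N (hB.1 hb)).2, h', hh', fun x hx => ?_⟩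
    show ((γ : MulAut E) ⟨b * x * b⁻¹, hx⟩ : Ω) = h' * ((γ : MulAut E) x : Ω) * h'⁻¹
    rw [← hh'e]
    show _ = ((γ : MulAut E) ((iB ⟨b, hb⟩ : MulAut E) ((γ : MulAut E).symm ((γ : MulAut E) x))) : Ω)
    rw [MulEquiv.symm_apply_apply]
    rfl
  have hquad : ∀ a ∈ A, ∀ b ∈ A, ∀ v : V, b • (a • v - v) = a • v - v := by
    rintro _ ⟨a, rfl⟩ _ ⟨b, rfl⟩ v
    refine hvinj ?_
    rw [hiBv, hval_sub, hiBv]
    set d := (a : Ω) * val v * (a : Ω)⁻¹ * (val v)⁻¹
    have hd : d ∈ ⁅Z, B⁆ := by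
      rw [Subgroup.commutator_comm]
      exact Subgroup.commutator_mem_commutator a.2 ⟨_, (v.toMul : Subgroup.center E).2, rfl⟩
    have h2 := Subgroup.mem_centralizer_iff.1
      ((Subgroup.commutator_eq_bot_iff_le_centralizer.1 hBquad) hd) b b.2
    rw [h2, mul_inv_cancel_right]
  have hoff : ∀ W : AddSubgroup V, (∀ a ∈ A, ∀ w ∈ W, a • w ∈ W) →
      Nat.card W * Nat.card ↥(A ⊓ pointwiseV (P := G) W) ≤
        Nat.card A * Nat.card ↥(fixV (V := V) A ⊓ W) := by
    intro W _
    let Ws : Subgroup Ω :=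
      { carrier := {y | ∃ w ∈ W, val w = y}
        one_mem' := ⟨0, zero_mem W, rfl⟩
        mul_mem' := by rintro _ _ ⟨u, hu, rfl⟩ ⟨v, hv, rfl⟩; exact ⟨u + v, add_mem hu hv, rfl⟩
        inv_mem' := by rintro _ ⟨u, hu, rfl⟩; exact ⟨-u, neg_mem hu, rfl⟩ }
    have hWsZ : Ws ≤ Z := by rintro _ ⟨w, -, rfl⟩; exact ⟨_, (w.toMul : Subgroup.center E).2, rfl⟩
    set BW := B ⊓ Subgroup.centralizer (Ws : Set Ω)
    have hcardW : Nat.card Ws = Nat.card W := (Nat.card_congr (Equiv.ofBijective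
      (fun w : W => (⟨val w, w, w.2, rfl⟩ : Ws)) ⟨fun a b h =>
        Subtype.ext (hvinj (congrArg Subtype.val h :)), fun y => by
          obtain ⟨w, hw, he⟩ := y.2
          exact ⟨⟨w, hw⟩, Subtype.ext he⟩⟩)).symm
    have hfixW : Nat.card ↥(Ws ⊓ Subgroup.centralizer (B : Set Ω)) = Nat.card ↥(fixV (V := V) A ⊓ W) := by
      refine (Nat.card_congr (Equiv.ofBijective (fun w : ↥(fixV (V := V) A ⊓ W) =>
        (⟨val w, ⟨⟨w, w.2.2, rfl⟩, ?_⟩⟩ : ↥(Ws ⊓ Subgroup.centralizer (B : Set Ω)))) ⟨fun a b h =>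
          Subtype.ext (hvinj (congrArg Subtype.val h :)), fun y => ?_⟩)).symm
      · refine Subgroup.mem_centralizer_iff.2 fun b hb => ?_
        have h1 := congrArg val (w.2.1 _ ⟨⟨b, hb⟩, rfl⟩)
        rw [hiBv] at h1
        exact mul_inv_eq_iff_eq_mul.1 h1
      · obtain ⟨w, hw, he⟩ := y.2.1
        refine ⟨⟨w, ?_, hw⟩, Subtype.ext he⟩
        rintro _ ⟨b, rfl⟩
        refine hvinj ?_
        rw [hiBv, he, Subgroup.mem_centralizer_iff.1 y.2.2 b b.2, mul_inv_cancel_right]
    have hmain : Nat.card Ws * Nat.card BW ≤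
        Nat.card B * Nat.card ↥(Ws ⊓ Subgroup.centralizer (B : Set Ω)) := by
      have hab : IsMulCommutative (BW ⊔ Ws : Subgroup Ω) := by
        rw [← Subgroup.le_centralizer_iff_isMulCommutative]
        have hc1 : BW ≤ Subgroup.centralizer (Ws : Set Ω) := inf_le_right
        refine sup_le ?_ ?_ <;> rw [Subgroup.le_centralizer_iff] <;> refine sup_le ?_ ?_
        · exact Subgroup.le_centralizer_iff_isMulCommutative.2 (comm_mono inf_le_left hB.2.1)
        · exact Subgroup.le_centralizer_iff.1 hc1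
        · exact hc1
        · exact Subgroup.le_centralizer_iff_isMulCommutative.2 (comm_mono hWsZ hZc)
      have hle : BW ⊔ Ws ≤ S1 := sup_le (inf_le_left.trans hB.1) (hWsZ.trans (hZE.trans hS1E))
      have h1 : Nat.card (BW ⊔ Ws : Subgroup Ω) ≤ Nat.card B := hB.2.2 _ hle hab
      have hmax' : Ws ⊓ BW ≤ Ws ⊓ Subgroup.centralizer (B : Set Ω) := fun y hy =>
        ⟨hy.1, Subgroup.mem_centralizer_iff.2 fun b hb => comm_iff.1 hB.2.1 b hb y hy.2.1⟩
      haveI := finite_of_le hle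
      haveI := finite_of_le ((inf_le_left.trans (hWsZ.trans (hZE.trans hS1E))) :
        Ws ⊓ Subgroup.centralizer (B : Set Ω) ≤ S1)
      haveI := finite_of_le (le_sup_left : BW ≤ BW ⊔ Ws)
      haveI := finite_of_le (le_sup_right : Ws ≤ BW ⊔ Ws)
      calc Nat.card Ws * Nat.card BW ≤ Nat.card (BW ⊔ Ws : Subgroup Ω) * Nat.card ↥(Ws ⊓ BW) := by
            rw [mul_comm, inf_comm]; exact card_mul_card_le _ _
        _ ≤ _ := Nat.mul_le_mul h1 (Subgroup.card_le_of_le hmax')
    -- transfer to the image of `B`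
    set g := iB with hg
    have hBWk : Nat.card ↥((A ⊓ pointwiseV (P := G) W).comap g) = Nat.card BW := by
      refine Nat.card_congr
        { toFun := fun b => ⟨((b : B) : Ω), (b : B).2, Subgroup.mem_centralizer_iff.2 ?_⟩
          invFun := fun b => ⟨⟨b, b.2.1⟩, ⟨_, rfl⟩, fun w hw => ?_⟩
          left_inv := fun _ => rfl
          right_inv := fun _ => rfl }
      · rintro _ ⟨w, hw, rfl⟩
        have h1 := congrArg val (b.2.2 w hw)
        rw [hiBv] at h1
        exact (mul_inv_eq_iff_eq_mul.1 h1).symm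
      · refine hvinj ?_
        rw [hiBv, ← Subgroup.mem_centralizer_iff.1 b.2.2 (val w) ⟨w, hw, rfl⟩, mul_inv_cancel_right]
    have hk : Nat.card ↥((A ⊓ pointwiseV (P := G) W).comap g) =
        Nat.card g.ker * Nat.card ↥(A ⊓ pointwiseV (P := G) W) := by
      set L := (A ⊓ pointwiseV (P := G) W).comap g
      set gl := g.comp L.subtype
      have h1 := gl.ker.card_mul_index
      rw [Subgroup.index_ker, show gl.ker = g.ker.subgroupOf L from rfl,
        Nat.card_congr (Subgroup.subgroupOfEquivOfLe (g.ker_le_comap _)).toEquiv,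
        show gl.range = A ⊓ pointwiseV (P := G) W by
          rw [MonoidHom.range_comp, Subgroup.range_subtype, Subgroup.map_comap_eq_self inf_le_left]] at h1
      exact h1.symm
    have hB' : Nat.card B = Nat.card g.ker * Nat.card A := by
      have h1 := g.ker.card_mul_index
      rw [Subgroup.index_ker] at h1
      exact h1.symm
    refine Nat.le_of_mul_le_mul_left ?_ (Nat.card_pos (α := g.ker))
    calc Nat.card g.ker * (Nat.card W * Nat.card ↥(A ⊓ pointwiseV (P := G) W))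
        = Nat.card Ws * Nat.card BW := by rw [← hBWk, hk, hcardW]; ring
      _ ≤ _ := hmain
      _ = _ := by rw [hfixW, hB']; ring
  have hpV : ∀ v : V, ∃ k : ℕ, p ^ k • v = 0 := fun v => by
    obtain ⟨k, hk⟩ := hS ⟨val v, hES ((v.toMul : Subgroup.center E) : E).2⟩
    refine ⟨k, hvinj ?_⟩
    show ((((v.toMul : Subgroup.center E) ^ p ^ k : Subgroup.center E) : E) : Ω) = 1
    rw [SubmonoidClass.coe_pow, SubmonoidClass.coe_pow]
    exact congrArg Subtype.val hk
  obtain ⟨h, hhst, ⟨n, hn, hhn⟩, ⟨t1, ht1, hne1⟩, htrans⟩ :=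
    exists_torus hp2 hpV R T₁ hUT A hAU ⟨⟨γ0, hγ0⟩, fun hs => hmovE ((hstab_iff _).1 hs)⟩
      hwcA hquad hoff
  obtain ⟨ψ, hψ, hψe⟩ := exists_restrict hTS hTE hES h.2 ((hstab_iff h).1 hhst)
  let inT : T₀ → V := fun t => lift ⟨t, hTE t.2⟩ t.2
  have hinT : ∀ t, val (inT t) = t := fun _ => rfl
  have hψpow : ∀ (k : ℕ) (t : T₀), inT ((ψ ^ k) t) = h ^ k • inT t := by
    intro k
    induction k with
    | zero => intro t; rw [pow_zero, pow_zero, one_smul]; rfl
    | succ k ih =>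
      intro t
      rw [pow_succ', pow_succ', mul_smul, ← ih]
      exact hvinj (hψe _)
  have hψ1' : ∀ t : T₀, inT (ψ t) = h • inT t := fun t => by simpa using hψpow 1 t
  have hinTinj : Function.Injective inT := fun a b hab =>
    Subtype.ext ((hinT a).symm.trans ((congrArg val hab).trans (hinT b)))
  refine ⟨ψ, hψ, ⟨n, hn, MulEquiv.ext fun t => hinTinj ?_⟩, ?_, fun a b ha hb ha1 hb1 => ?_⟩
  · rw [hψpow, hhn _ (show val (inT t) ∈ T₀ from t.2)]; rfl
  · intro h1
    apply hne1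
    have h2 := hψ1' ⟨val t1, ht1⟩
    rw [h1] at h2
    exact h2.symm
  · have hmem : ∀ a : T₀, a ∈ Subgroup.closure {y : T₀ | ∃ t : T₀, y = ψ t * t⁻¹} →
        inT a ∈ AddSubgroup.closure {y | ∃ t ∈ T₁, y = h • t - t} := by
      intro a ha
      induction ha using Subgroup.closure_induction with
      | mem y hy =>
        obtain ⟨t, rfl⟩ := hy
        refine AddSubgroup.subset_closure ⟨inT t, t.2, hvinj ?_⟩
        rw [hval_sub, ← hψ1']; rfl
      | one => exact zero_mem _
      | mul u v _ _ hu hv => exact add_mem hu hv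
      | inv u _ hu => exact neg_mem hu
    obtain ⟨k, hk⟩ := htrans (inT a) (inT b) (hmem a ha) (hmem b hb)
      (fun he => ha1 (hinTinj (he.trans (show (0 : V) = inT 1 from rfl))))
      (fun he => hb1 (hinTinj (he.trans (show (0 : V) = inT 1 from rfl))))
    exact ⟨k, hinTinj ((hψpow k a).trans hk)⟩

end Saturated

end Cfsg.Agent.FFTorus
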